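import Cfsg.Agent.H28.TwOv.Glue

/-!
# Overgroups of the subfield subgroups of twisted groups: assembling (S2187, X6)

* `fix_borel` : `H ∩ B` is fixed;
* `hind`      : `g ∈ H` is fixed or `g = b n u` with `w⁻¹ top = 0`;
* `over_fixed`: everything is fixed, given the opposite case.
-/

set_option autoImplicit false

namespace Cfsg.Agent.H28.TwOv

open Cfsg.Lie Cfsg.Agent.ChevalleyStructure Cfsg.Agent.ChevalleyStructure.Elts
open Cfsg.Agent.ChevalleyStructure.TwistedU Cfsg.Agent.H82.Level Cfsg.Agent.H82.TwMax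
open Cfsg.Agent.ChevalleyStructure.RootCombGood (co car)
open Cfsg.Agent.ChevalleyStructure.RootWord
open Cfsg.Agent.ChevalleyStructure.BruhatSplit (Acts)
open Cfsg.Agent.ChevalleyStructure.TwistedBN
open Cfsg.Agent.H86.Par (top)
open Cfsg.Agent.H86.Graded (Q)
open scoped commutatorElement

universe u

section Final

variable {D : ChevalleyDatum} {K : Type u} [Field K] {hD : InList D} {h : SL D} {Lo : List (List ℕ)}
  {rho : ℕ → ℕ} {eps : ℕ → ℤ} {φ : K →+* K} {sg : GL D.Idx K →* GL D.Idx K} {ι : Type*}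
  (T : TwistedData (GL D.Idx K) ι)
  {W : Tw hD h Lo rho eps φ sg T.G} {ψ : K →+* K} {H : Subgroup (GL D.Idx K)} (V : OvH W ψ (top D) H)
  {J : ι → List ℕ} (C : ClsP rho T.G ψ J T.n H)

include hD in
theorem exists_NW' (hH : T.H = D.diagonalSubgroup K) (C : ClsP rho T.G ψ J T.n H) {n : GL D.Idx K}
    (hn : n ∈ Subgroup.closure (Set.range T.n) ⊔ (T.H ⊓ T.G)) : ∃ w, NW rho T.G n w := by
  have Gd := RootComb.good_of_mem hD
  rw [← Subgroup.closure_eq (T.H ⊓ T.G), ← Subgroup.closure_union] at hn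
  refine Subgroup.closure_induction (p := fun n _ => ∃ w, NW rho T.G n w) ?_ ?_ ?_ ?_ hn
  · rintro _ (⟨i, rfl⟩ | hx)
    · exact ⟨_, C.nhW i⟩
    · rename_i x
      have hx1 : x ∈ D.diagonalSubgroup K := hH ▸ hx.1
      exact ⟨[], hx.2, Subgroup.mem_sup_left hx1, by simp, BruhatSplit.acts_of_mem_diagonal hD Gd hx1,
        fun r _ => rfl⟩
  · exact ⟨[], one_mem _, one_mem _, by simp, BruhatSplit.acts_one, fun r _ => rfl⟩
  · rintro _ _ _ _ ⟨w, hw⟩ ⟨w', hw'⟩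
    exact ⟨_, hw.mul Gd hw'⟩
  · rintro _ _ ⟨w, hw⟩
    exact ⟨_, hw.inv C.rho_lt Gd⟩

/-- the hypotheses on a real root `β` used for the Borel part -/
structure BetaP (D : ChevalleyDatum) {K : Type u} [Field K] (hD : InList D) (φ ψ : K →+* K)
    (sg : GL D.Idx K →* GL D.Idx K) (H : Subgroup (GL D.Idx K)) (β : ℕ) : Prop where
  lt : β < D.nroots
  ne : β ≠ top D
  nen : β ≠ D.neg (top D)
  pos : D.IsPosRoot (add D (top D) β)
  sg_x : ∀ c : K, sg (xG hD β c) = xG hD β (φ c)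
  mem : ∀ c : K, φ c = c → ψ c = c → xG hD β c ∈ H

include V in
theorem fix_borel (hU : T.U = D.posUnipotent K) (hH : T.H = D.diagonalSubgroup K)
    (he : ∀ r ∈ Lo.flatten, ht D r = 1 → eps r = 1) {β : ℕ} (B : BetaP D hD φ ψ sg H β) :
    ∀ g ∈ H, g ∈ D.borelSubgroup K → fr D ψ g = g := by
  have hUH : T.U ⊔ T.H = D.borelSubgroup K := by rw [hU, hH]; rfl
  intro g hg hgB
  rw [← hUH] at hgB
  obtain ⟨v, hv, hvG, t, ht, htG, rfl⟩ := (T.mem_B_iff g (V.le hg)).1 hgB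
  exact V.fix_B he B.lt B.ne B.nen B.pos B.sg_x B.mem (hU ▸ hv) (W.G_fix v hvG) (hH ▸ ht) (W.G_fix t htG) hg

include V C in
theorem hind (hU : T.U = D.posUnipotent K) (hH : T.H = D.diagonalSubgroup K)
    (he : ∀ r ∈ Lo.flatten, ht D r = 1 → eps r = 1) {β : ℕ} (B : BetaP D hD φ ψ sg H β)
    (key : ∀ (w : List ℕ) (b n u : GL D.Idx K), b ∈ D.borelSubgroup K → b ∈ T.G → NW rho T.G n w →
      u ∈ D.posUnipotent K → u ∈ T.G → b * n * u ∈ H →
      (∀ i < D.rank, D.IsPosRoot (wact D w (D.simple i))) ∨ wact D w.reverse (top D) = 0 ∨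
      ∃ i, (∀ j ∈ J i, D.IsNegRoot (wact D w (D.simple j))) ∧
        (∀ j ∈ J i, ψ (cf (D.simple j) u) = cf (D.simple j) u) ∧ wact D (J i) (wact D w.reverse (top D)) ≠ 0) :
    ∀ g ∈ H, H82.TwMax.fr D ψ g = g ∨ ∃ (b n u : GL D.Idx K) (w : List ℕ), b ∈ D.borelSubgroup K ∧
      NW rho T.G n w ∧ u ∈ D.posUnipotent K ∧ u ∈ T.G ∧ g = b * n * u ∧ wact D w.reverse (top D) = 0 := by
  have hUH : T.U ⊔ T.H = D.borelSubgroup K := by rw [hU, hH]; rfl
  have hB := fix_borel T V hU hH he B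
  intro g hg
  obtain ⟨b, n, u, hb, hbG, hn, hu, huG, rfl⟩ := bruhat_right T (V.le hg)
  obtain ⟨w, hw⟩ := exists_NW' T (hD := hD) hH C hn
  rcases bruhat_ind hD C V.le hB key (inv D w) w b n u le_rfl (hUH ▸ hb) hbG hw (hU ▸ hu) huG hg with h1 | h1
  · exact Or.inl h1
  · exact Or.inr ⟨b, n, u, w, hUH ▸ hb, hw, hU ▸ hu, huG, rfl, h1⟩

include V C in
/-- **The conclusion, from the opposite case.** -/
theorem over_fixed (hU : T.U = D.posUnipotent K) (hH : T.H = D.diagonalSubgroup K)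
    (he : ∀ r ∈ Lo.flatten, ht D r = 1 → eps r = 1) {β : ℕ} (B : BetaP D hD φ ψ sg H β)
    (key : ∀ (w : List ℕ) (b n u : GL D.Idx K), b ∈ D.borelSubgroup K → b ∈ T.G → NW rho T.G n w →
      u ∈ D.posUnipotent K → u ∈ T.G → b * n * u ∈ H →
      (∀ i < D.rank, D.IsPosRoot (wact D w (D.simple i))) ∨ wact D w.reverse (top D) = 0 ∨
      ∃ i, (∀ j ∈ J i, D.IsNegRoot (wact D w (D.simple j))) ∧
        (∀ j ∈ J i, ψ (cf (D.simple j) u) = cf (D.simple j) u) ∧ wact D (J i) (wact D w.reverse (top D)) ≠ 0)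
    (hlev : ∀ r < D.nroots, D.IsPosRoot r → car D (top D) (rho r) = car D (top D) r)
    (hcl : ∀ r ∈ Lo.flatten, r ≠ top D → ∃ j ∈ Lo.flatten, car D (top D) j = 1 ∧ add D j r < D.nroots)
    (hopp : (∀ u ∈ H, u ∈ D.posUnipotent K → H92.ChevFrob.fr D ψ u = u) →
      (∀ g ∈ H, H92.ChevFrob.fr D ψ g = g ∨ ∃ q ∈ Q D K (top D), sg q = q ∧ ∃ t : K, t ≠ 0 ∧
        g⁻¹ * xG hD (top D) 1 * g = q⁻¹ * xG hD 0 t * q) →
      (∀ g ∈ H, g ∈ H86.Par.P K D → H92.ChevFrob.fr D ψ g = g) →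
      (∀ q ∈ Q D K (top D), sg q = q →
        (∀ r < D.nroots, car D (top D) r = 1 → ψ (H86.Graded.kap D (top D) r (q : Matrix D.Idx D.Idx K)) =
          H86.Graded.kap D (top D) r (q : Matrix D.Idx D.Idx K)) →
        ∃ e : K, ∃ W ∈ H, W ∈ Q D K (top D) ∧ H92.ChevFrob.fr D ψ W = W ∧ q = xG hD (top D) e * W) →
      (∀ q ∈ Q D K (top D), sg q = q → H92.ChevFrob.fr D ψ q = q → q ∈ H) →
      (∀ s ∈ H, s ∈ D.posUnipotent K → (∀ q ∈ H, q ∈ Q D K (top D) → s * q = q * s) → s ∈ Q D K (top D)) →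
      ∀ g ∈ H, H92.ChevFrob.fr D ψ g = g) :
    ∀ g ∈ H, H92.ChevFrob.fr D ψ g = g := by
  have hC := pair_of_ind (W := W) hlev V.le (hind T V C hU hH he B key)
  exact hopp (by intro u hu huU; rw [fr_eq]; exact V.fix_U u hu huU) hC (hP_of_pair hC) V.hB V.hF (V.hCQ hlev hcl)

end Final

end Cfsg.Agent.H28.TwOv
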