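import Cfsg.Agent.H82.TwMaxD

/-!
# Overgroups of the subfield subgroups of twisted groups: the unipotent part (S2187, X6)

`Tw hD h Lo rho eps φ sg G` as in `H82.TwMax`, `ψ` a second field map. `Ind` : the independence of the conjugates.

* `fix_U` : `H ∩ U` is fixed entrywise by `ψ` if `H ∩ X_top` is;
* `fix_vt` : `v ∈ U`, `t` diagonal and fixed, `v t ∈ H` ⟹ `v` fixed.
-/

set_option autoImplicit false

namespace Cfsg.Agent.H28.TwOv

open Cfsg.Lie Cfsg.Agent.ChevalleyStructure Cfsg.Agent.ChevalleyStructure.Elts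
open Cfsg.Agent.ChevalleyStructure.TwistedU Cfsg.Agent.H82.Level Cfsg.Agent.H82.TwMax
open Cfsg.Agent.ChevalleyStructure.RootCombGood (co car)
open Cfsg.Agent.ChevalleyStructure.RootWord
open scoped commutatorElement

universe u

section Lvl

variable {D : ChevalleyDatum} {K : Type u} [Field K] (hD : InList D) (h : SL D) {L : List ℕ} (O : Ord K hD L)

include O in
/-- the coordinates of a commutator -/
theorem cf_comm_bil {k m : ℤ} {a b : GL D.Idx K} (ha : a ∈ Lv K hD h k) (hb : b ∈ Lv K hD h m) (hk : 1 ≤ k)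
    (hm : 1 ≤ m) {γ : ℕ} (hγ : D.IsPosRoot γ) (hr : ht D γ = k + m) :
    cf γ ⁅a, b⁆ = ∑ j ∈ L.toFinset, (if ht D j = k then cf j a *
      (∑ s ∈ L.toFinset, if add D j s = γ then (kap D j s : K) * cf s b else 0) else 0) := by
  have h1 : ⁅b, a⁆ ∈ Lv K hD h (ht D γ) := by rw [hr, add_comm]; exact comm_mem_Lv hD h hb ha
  rw [← commutatorElement_inv, cf_inv hD h h1, cf_comm_right hD h O hb ha hk (by rw [hr, add_comm]),
    ← List.sum_toFinset _ O.nodup, ← Finset.sum_neg_distrib]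
  refine Finset.sum_congr rfl fun j hj => ?_
  have hj' := (O.mem j).1 (List.mem_toFinset.1 hj)
  by_cases e : ht D j = k
  · rw [if_pos e, if_pos e]
    have h2 : ⁅(xG hD j (cf j a) : GL D.Idx K), b⁆ ∈ Lv K hD h (ht D γ) := by
      rw [hr, ← e]; exact comm_mem_Lv hD h (xG_mem_Lv hD h hj' _) hb
    rw [← commutatorElement_inv, cf_inv hD h h2, _root_.neg_neg, cf_comm_X_left hD h O hj' hb hm hγ (by rw [hr, e]),
      Finset.mul_sum]
    refine Finset.sum_congr rfl fun s _ => ?_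
    by_cases e2 : add D j s = γ
    · rw [if_pos e2, if_pos e2]; ring
    · rw [if_neg e2, if_neg e2, mul_zero]
  · rw [if_neg e, if_neg e, xG_zero, commutatorElement_one_right, cf_one, neg_zero]

end Lvl

/-- independence: the coordinates at `j` are determined by the sums over the fixed compatible families -/
def Ind {K : Type u} [Field K] (_D : ChevalleyDatum) (L : List ℕ) (rho : ℕ → ℕ) (eps : ℕ → ℤ) (φ ψ : K →+* K) : Prop :=
  ∀ j ∈ L, ∀ B : ℕ → K, (∀ τ : ℕ → K, (∀ r ∈ L, τ (rho r) = (eps r : K) * φ (τ r)) → (∀ r, ψ (τ r) = τ r) →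
    (∀ r ∈ L, (∀ k : ℕ, rho^[k] j ≠ r) → τ r = 0) → ∑ s ∈ L.toFinset, τ s * B s = 0) → B j = 0

section Tw

variable {D : ChevalleyDatum} {K : Type u} [Field K] {hD : InList D} {h : SL D} {Lo : List (List ℕ)}
  {rho : ℕ → ℕ} {eps : ℕ → ℤ} {φ : K →+* K} {sg : GL D.Idx K →* GL D.Idx K} {G : Subgroup (GL D.Idx K)}
  (W : Tw hD h Lo rho eps φ sg G) (ψ : K →+* K)

/-- the product with the coordinates `τ` -/
noncomputable def yy (hD : InList D) (Lo : List (List ℕ)) (τ : ℕ → K) : GL D.Idx K := lprod (xG hD) Lo.flatten τ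

theorem yy_fr {τ : ℕ → K} (hτ : ∀ r, ψ (τ r) = τ r) : fr D ψ (yy hD Lo τ) = yy hD Lo τ := by
  unfold yy
  rw [fr_lprod]
  exact lprod_congr _ fun s _ => hτ s

theorem fr_of_lead (O : Ord K hD Lo.flatten) {m : ℤ} {g : GL D.Idx K}
    (hc : ∀ r, D.IsPosRoot r → ht D r = m → ψ (cf r g) = cf r g) :
    fr D ψ (lead hD Lo.flatten m g) = lead hD Lo.flatten m g := by
  unfold lead
  rw [fr_lprod]
  refine lprod_congr _ fun s hs => ?_
  by_cases hm : ht D s = m
  · rw [if_pos hm, hc s ((O.mem s).1 hs) hm]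
  · rw [if_neg hm, map_zero]

include W

theorem yy_sg {τ : ℕ → K} (hτ : ∀ r ∈ Lo.flatten, τ (rho r) = (eps r : K) * φ (τ r)) :
    sg (yy hD Lo τ) = yy hD Lo τ := sg_lprod W hτ

theorem yy_factor {τ : ℕ → K} {k : ℤ} (hτ : ∀ r ∈ Lo.flatten, ht D r < k → τ r = 0) :
    ∀ s ∈ Lo.flatten, xG hD s (τ s) ∈ Lv K hD h k := by
  intro s hs
  by_cases e : ht D s < k
  · rw [hτ s hs e, xG_zero]
    exact one_mem _
  · exact Lv_anti hD h (not_lt.1 e) (xG_mem_Lv hD h ((isPosRoot_iff W.T s).1 hs) _)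

theorem yy_mem_Lv {τ : ℕ → K} {k : ℤ} (hτ : ∀ r ∈ Lo.flatten, ht D r < k → τ r = 0) :
    yy hD Lo τ ∈ Lv K hD h k := lprod_mem_Lv hD h (yy_factor W hτ)

theorem cf_yy {τ : ℕ → K} {k : ℤ} (hτ : ∀ r ∈ Lo.flatten, ht D r < k → τ r = 0) {s : ℕ} (hs : D.IsPosRoot s)
    (hsk : ht D s = k) : cf s (yy hD Lo τ) = τ s :=
  cf_lprod_L hD h (ord (K := K) hD h W.T) hsk hs (yy_factor W hτ)

theorem ht_iter (j : ℕ) (hj : j < D.nroots) (k : ℕ) : rho^[k] j < D.nroots ∧ ht D (rho^[k] j) = ht D j := by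
  induction k with
  | zero => exact ⟨hj, rfl⟩
  | succ k ih =>
    rw [Function.iterate_succ_apply']
    exact ⟨W.T.rho_lt _ ih.1, (W.T.rho_ht _ ih.1).trans ih.2⟩

theorem supp_ht {j : ℕ} (hj : j < D.nroots) {τ : ℕ → K} (hτ : ∀ r ∈ Lo.flatten, (∀ k : ℕ, rho^[k] j ≠ r) → τ r = 0) :
    ∀ r ∈ Lo.flatten, ht D r ≠ ht D j → τ r = 0 := fun r hr hne =>
  hτ r hr fun k e => hne (by rw [← e]; exact (ht_iter W j hj k).2)

/-- the coordinate of `v` at `s₀` vanishes if the commutators with the fixed elements have vanishing coordinates -/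
theorem cf_zero_of_comm (I : Ind D Lo.flatten rho eps φ ψ) {m : ℤ} {v : GL D.Idx K} (hv : v ∈ Lv K hD h m) (hm : 1 ≤ m)
    {s₀ j₀ : ℕ} (hs₀ : D.IsPosRoot s₀) (hs₀m : ht D s₀ = m) (hj₀ : D.IsPosRoot j₀) (hlt : add D j₀ s₀ < D.nroots)
    (Hy : ∀ τ : ℕ → K, (∀ r ∈ Lo.flatten, (∀ k : ℕ, rho^[k] j₀ ≠ r) → τ r = 0) →
      yy hD Lo τ ∈ Lv K hD h (ht D j₀) → sg (yy hD Lo τ) = yy hD Lo τ → fr D ψ (yy hD Lo τ) = yy hD Lo τ →
      cf (add D j₀ s₀) ⁅yy hD Lo τ, v⁆ = 0) :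
    cf s₀ v = 0 := by
  have O := ord (K := K) hD h W.T
  obtain ⟨hp, hht, hk⟩ := pos_of_add hD h hj₀ hs₀ hlt
  have h1 := I j₀ ((isPosRoot_iff W.T _).2 hj₀)
    (fun j => ∑ s ∈ Lo.flatten.toFinset, if add D j s = add D j₀ s₀ then (kap D j s : K) * cf s v else 0) (by
      intro τ hτ1 hτ2 hτ0
      have hτ3 := supp_ht W hj₀.1 hτ0
      have hτ4 : ∀ r ∈ Lo.flatten, ht D r < ht D j₀ → τ r = 0 := fun r hr hlt => hτ3 r hr (by omega)
      have h2 := Hy τ hτ0 (yy_mem_Lv W hτ4) (yy_sg W hτ1) (yy_fr ψ hτ2)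
      rw [cf_comm_bil hD h O (yy_mem_Lv W hτ4) hv (h.pos _ hj₀.1 hj₀) hm hp (by rw [hht, hs₀m])] at h2
      refine Eq.trans ?_ h2
      refine Finset.sum_congr rfl fun j hj => ?_
      have hj' := List.mem_toFinset.1 hj
      by_cases e : ht D j = ht D j₀
      · rw [if_pos e, cf_yy W hτ4 ((isPosRoot_iff W.T _).1 hj') e]
      · rw [if_neg e, hτ3 j hj' e, zero_mul])
  rw [Finset.sum_eq_single s₀] at h1
  · rw [if_pos rfl] at h1
    have hk' : (kap D j₀ s₀ : K) ≠ 0 := by rcases hk with hk | hk <;> rw [hk] <;> simp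
    exact (mul_eq_zero.1 h1).resolve_left hk'
  · intro s hs hne
    rw [if_neg]
    intro he
    apply hne
    have hs' := (O.mem s).1 (List.mem_toFinset.1 hs)
    have h2 := h.add_neg j₀ hj₀.1 s hs'.1 (by rw [he]; exact hlt)
    have h3 := h.add_neg j₀ hj₀.1 s₀ hs₀.1 hlt
    rw [← h2, he, h3]
  · intro hs'
    exact absurd (List.mem_toFinset.2 ((O.mem s₀).2 hs₀)) hs'

/-- the coordinate of `v` at `s₀` is fixed if the commutators with the fixed elements have fixed coordinates -/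
theorem cf_fixed_of_comm (I : Ind D Lo.flatten rho eps φ ψ) {m : ℤ} {v : GL D.Idx K} (hv : v ∈ Lv K hD h m) (hm : 1 ≤ m)
    {s₀ j₀ : ℕ} (hs₀ : D.IsPosRoot s₀) (hs₀m : ht D s₀ = m) (hj₀ : D.IsPosRoot j₀) (hlt : add D j₀ s₀ < D.nroots)
    (Hy : ∀ y, y ∈ Lv K hD h (ht D j₀) → sg y = y → fr D ψ y = y →
      ψ (cf (add D j₀ s₀) ⁅y, v⁆) = cf (add D j₀ s₀) ⁅y, v⁆) :
    ψ (cf s₀ v) = cf s₀ v := by
  have O := ord (K := K) hD h W.T
  obtain ⟨hp, hht, hk⟩ := pos_of_add hD h hj₀ hs₀ hlt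
  obtain ⟨B, hB⟩ : ∃ B : ℕ → K, B = fun j => ∑ s ∈ Lo.flatten.toFinset,
      if add D j s = add D j₀ s₀ then (kap D j s : K) * cf s v else 0 := ⟨_, rfl⟩
  have hB0 : B j₀ = (kap D j₀ s₀ : K) * cf s₀ v := by
    rw [hB]
    simp only
    rw [Finset.sum_eq_single s₀]
    · rw [if_pos rfl]
    · intro s hs hne
      rw [if_neg]
      intro he
      apply hne
      have hs' := (O.mem s).1 (List.mem_toFinset.1 hs)
      have h2 := h.add_neg j₀ hj₀.1 s hs'.1 (by rw [he]; exact hlt)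
      have h3 := h.add_neg j₀ hj₀.1 s₀ hs₀.1 hlt
      rw [← h2, he, h3]
    · intro hs'
      exact absurd (List.mem_toFinset.2 ((O.mem s₀).2 hs₀)) hs'
  have h1 := I j₀ ((isPosRoot_iff W.T _).2 hj₀) (fun j => ψ (B j) - B j) (by
      intro τ hτ1 hτ2 hτ0
      have hτ3 := supp_ht W hj₀.1 hτ0
      have hτ4 : ∀ r ∈ Lo.flatten, ht D r < ht D j₀ → τ r = 0 := fun r hr hlt => hτ3 r hr (by omega)
      have h2 := Hy _ (yy_mem_Lv W hτ4) (yy_sg W hτ1) (yy_fr ψ hτ2)
      have h3 : cf (add D j₀ s₀) ⁅yy hD Lo τ, v⁆ = ∑ j ∈ Lo.flatten.toFinset, τ j * B j := by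
        rw [cf_comm_bil hD h O (yy_mem_Lv W hτ4) hv (h.pos _ hj₀.1 hj₀) hm hp (by rw [hht, hs₀m])]
        refine Finset.sum_congr rfl fun j hj => ?_
        have hj' := List.mem_toFinset.1 hj
        by_cases e : ht D j = ht D j₀
        · rw [if_pos e, cf_yy W hτ4 ((isPosRoot_iff W.T _).1 hj') e, hB]
        · rw [if_neg e, hτ3 j hj' e, zero_mul]
      rw [h3, map_sum] at h2
      rw [← sub_eq_zero, ← Finset.sum_sub_distrib] at h2
      refine Eq.trans ?_ h2
      refine Finset.sum_congr rfl fun j _ => ?_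
      rw [map_mul, hτ2]
      ring)
  have h2 := sub_eq_zero.1 h1
  rw [hB0, map_mul, map_intCast] at h2
  have hk' : (kap D j₀ s₀ : K) ≠ 0 := by rcases hk with hk | hk <;> rw [hk] <;> simp
  exact mul_left_cancel₀ hk' h2

theorem sg_lead {m : ℤ} {g : GL D.Idx K} (hg : g ∈ Lv K hD h m) (hf : sg g = g) :
    sg (lead hD Lo.flatten m g) = lead hD Lo.flatten m g := W.G_fix _ (lead_mem_G W hg hf)

/-- elements of the highest level -/
theorem eq_top {top : ℕ} (htop : D.IsPosRoot top) (hmax : ∀ r, D.IsPosRoot r → r ≠ top → ht D r < ht D top)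
    {g : GL D.Idx K} (hg : g ∈ Lv K hD h (ht D top)) : g = xG hD top (cf top g) := by
  have O := ord (K := K) hD h W.T
  have h1 : (xG hD top (cf top g))⁻¹ * g ∈ Lv K hD h (ht D top + 1) := by
    have hX := xG_mem_Lv (K := K) hD h htop (cf top g)
    refine mem_Lv_succ hD h O (mul_mem (inv_mem hX) hg) fun r hr hrm => ?_
    have hrt : r = top := by
      by_contra hne
      have := hmax r hr hne
      omega
    subst hrt
    rw [cf_mul_left hD h (inv_mem hX) hg.1, cf_inv hD h hX, cf_xG hD h hr.1 hr.1, if_pos rfl]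
    ring
  have h2 := eq_one_of_high W (m := ht D top + 1) (fun r hr => by
    by_cases e : r = top
    · rw [e]; omega
    · have := hmax r hr e
      omega) h1
  exact (inv_mul_eq_one.1 h2).symm

/-- the hypotheses on the subgroup `H` -/
structure OvH (W : Tw hD h Lo rho eps φ sg G) (ψ : K →+* K) (top : ℕ) (H : Subgroup (GL D.Idx K)) : Prop where
  ind : Ind D Lo.flatten rho eps φ ψ
  top_pos : D.IsPosRoot top
  max : ∀ r, D.IsPosRoot r → r ≠ top → ht D r < ht D top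
  climb : ∀ r ∈ Lo.flatten, r ≠ top → ∃ j ∈ Lo.flatten, add D j r < D.nroots
  le : H ≤ G
  memU : ∀ u ∈ D.posUnipotent K, sg u = u → fr D ψ u = u → u ∈ H
  memX : ∀ t : K, xG hD top t ∈ H → ψ t = t

end Tw

section Ov

variable {D : ChevalleyDatum} {K : Type u} [Field K] {hD : InList D} {h : SL D} {Lo : List (List ℕ)}
  {rho : ℕ → ℕ} {eps : ℕ → ℤ} {φ : K →+* K} {sg : GL D.Idx K →* GL D.Idx K} {G : Subgroup (GL D.Idx K)}
  {W : Tw hD h Lo rho eps φ sg G} {ψ : K →+* K} {top : ℕ} {H : Subgroup (GL D.Idx K)} (V : OvH W ψ top H)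

include V

/-- `H ∩ U` is fixed entrywise -/
theorem OvH.fix_U : ∀ u ∈ H, u ∈ D.posUnipotent K → fr D ψ u = u := by
  have O := ord (K := K) hD h W.T
  obtain ⟨N, hN⟩ : ∃ N : ℕ, ∀ r, D.IsPosRoot r → ht D r < N := by
    refine ⟨(ht D top).toNat + 1, fun r hr => ?_⟩
    have h1 := h.pos top V.top_pos.1 V.top_pos
    by_cases e : r = top
    · rw [e]; omega
    · have := V.max r hr e
      omega
  have key : ∀ n : ℕ, ∀ m : ℤ, 1 ≤ m → (N : ℤ) ≤ m + n → ∀ u ∈ H, u ∈ Lv K hD h m → fr D ψ u = u := by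
    intro n
    induction n with
    | zero =>
      intro m _ hm u _ hu
      rw [eq_one_of_high W (fun r hr => lt_of_lt_of_le (hN r hr) (by simpa using hm)) hu, map_one]
    | succ n ih =>
      intro m hm1 hm u huH hu
      push_cast at hm
      have hsg := W.G_fix u (V.le huH)
      have hc : ∀ r, D.IsPosRoot r → ht D r = m → ψ (cf r u) = cf r u := by
        intro r hr hrm
        by_cases e : r = top
        · subst e
          refine V.memX _ ?_
          rw [← eq_top W V.top_pos V.max (by rw [hrm]; exact hu)]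
          exact huH
        · obtain ⟨j, hj, hlt⟩ := V.climb r ((O.mem r).2 hr) e
          have hj' := (O.mem j).1 hj
          have hjk := h.pos j hj'.1 hj'
          refine cf_fixed_of_comm W ψ V.ind hu hm1 hr hrm hj' hlt fun y hy hys hyf => ?_
          have hyH := V.memU y hy.1 hys hyf
          have h1 : ⁅y, u⁆ ∈ H := by
            rw [commutatorElement_def]
            exact mul_mem (mul_mem (mul_mem hyH huH) (inv_mem hyH)) (inv_mem huH)
          exact cf_of_fr ψ (ih (ht D j + m) (by omega) (by omega) _ h1 (comm_mem_Lv hD h hy hu))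
      have h1 := fr_of_lead ψ O hc
      have h2 := V.memU _ (lead_mem hD h O m u).1 (sg_lead W hu hsg) h1
      have h3 := ih (m + 1) (by omega) (by omega) _ (mul_mem (inv_mem h2) huH) (lead_inv_mul_mem hD h O hu)
      rw [map_mul, map_inv, h1] at h3
      exact mul_left_cancel h3
  intro u huH hu
  exact key N 1 le_rfl (by omega) u huH (by rw [Lv_one]; exact hu)

/-- a torus element times a unipotent element -/
theorem OvH.split_vt {v t : GL D.Idx K} (hv : v ∈ D.posUnipotent K) (hvs : sg v = v)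
    (ht : t ∈ D.diagonalSubgroup K) (hts : sg t = t) (htf : fr D ψ t = t) (hg : v * t ∈ H) :
    ∃ v₀ ∈ H, v₀ ∈ D.posUnipotent K ∧ fr D ψ v₀ = v₀ ∧ ∃ e : K, v = v₀ * xG hD top e := by
  have O := ord (K := K) hD h W.T
  have key : ∀ n : ℕ, (n : ℤ) + 1 ≤ H82.Level.ht D top → ∃ v₀ ∈ H, v₀ ∈ D.posUnipotent K ∧ fr D ψ v₀ = v₀ ∧
      ∃ v₁ ∈ Lv K hD h (n + 1), sg v₁ = v₁ ∧ v = v₀ * v₁ := by
    intro n
    induction n with
    | zero =>
      intro _
      refine ⟨1, one_mem _, one_mem _, map_one _, v, ?_, hvs, (one_mul v).symm⟩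
      rw [Nat.cast_zero, zero_add, Lv_one]
      exact hv
    | succ n ih =>
      intro hn
      push_cast at hn
      obtain ⟨v₀, hv₀, hv₀U, hv₀f, v₁, hv₁, hv₁s, e⟩ := ih (by omega)
      have hg1 : v₁ * t ∈ H := by
        have e1 : v₁ * t = v₀⁻¹ * (v * t) := by rw [e]; group
        rw [e1]
        exact mul_mem (inv_mem hv₀) hg
      have hm1 : (1 : ℤ) ≤ n + 1 := by omega
      have hc : ∀ r, D.IsPosRoot r → H82.Level.ht D r = n + 1 → ψ (cf r v₁) = cf r v₁ := by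
        intro r hr hrm
        have hrt : r ≠ top := by
          rintro rfl
          omega
        obtain ⟨j, hj, hlt⟩ := V.climb r ((O.mem r).2 hr) hrt
        have hj' := (O.mem j).1 hj
        refine cf_fixed_of_comm W ψ V.ind hv₁ hm1 hr hrm hj' hlt fun y hy hys hyf => ?_
        have hz : t⁻¹ * y * t⁻¹⁻¹ ∈ H := by
          refine V.memU _ (diag_conj_pos hD h (inv_mem ht) hy.1) ?_ ?_
          · rw [map_mul, map_mul, map_inv, map_inv, map_inv, hts, hys]
          · rw [map_mul, map_mul, map_inv, map_inv, map_inv, htf, hyf]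
        have hyH := V.memU y hy.1 hys hyf
        have h1 : ⁅y, v₁⁆ ∈ H := by
          have e1 : ⁅y, v₁⁆ = y * ((v₁ * t) * (t⁻¹ * y * t⁻¹⁻¹) * (v₁ * t)⁻¹)⁻¹ := by
            rw [commutatorElement_def]; group
          rw [e1]
          exact mul_mem hyH (inv_mem (mul_mem (mul_mem hg1 hz) (inv_mem hg1)))
        exact cf_of_fr ψ (V.fix_U _ h1 (comm_mem_Lv hD h hy hv₁).1)
      have h1 := fr_of_lead ψ O hc
      have h2 := V.memU _ (lead_mem hD h O _ v₁).1 (sg_lead W hv₁ hv₁s) h1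
      have h2s := sg_lead W hv₁ hv₁s
      refine ⟨v₀ * lead hD Lo.flatten (n + 1) v₁, mul_mem hv₀ h2, mul_mem hv₀U (lead_mem hD h O _ v₁).1,
        by rw [map_mul, hv₀f, h1], (lead hD Lo.flatten (n + 1) v₁)⁻¹ * v₁, ?_, ?_, ?_⟩
      · push_cast
        exact lead_inv_mul_mem hD h O hv₁
      · rw [map_mul, map_inv, h2s, hv₁s]
      · rw [e]; group
  have h1 := h.pos top V.top_pos.1 V.top_pos
  obtain ⟨v₀, hv₀, hv₀U, hv₀f, v₁, hv₁, hv₁s, e⟩ := key ((H82.Level.ht D top).toNat - 1) (by omega)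
  refine ⟨v₀, hv₀, hv₀U, hv₀f, cf top v₁, ?_⟩
  rw [e]
  congr 1
  refine eq_top W V.top_pos V.max ?_
  have e1 : (((H82.Level.ht D top).toNat - 1 : ℕ) : ℤ) + 1 = H82.Level.ht D top := by omega
  rw [e1] at hv₁
  exact hv₁

end Ov

end Cfsg.Agent.H28.TwOv
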