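import Cfsg.Agent.H28.TwOv.Lvl

/-!
# Overgroups of the subfield subgroups of twisted groups: the Borel part and the Bruhat induction (S2187, X6)

* `OvH.fix_B` : `H ∩ B` is fixed;
* `stage` : a stage of the chain;
* `bruhat_ind` : every `b n u ∈ H` is fixed or `w⁻¹` maps the highest root to the lowest one.
-/

set_option autoImplicit false

namespace Cfsg.Agent.H28.TwOv

open Cfsg.Lie Cfsg.Agent.ChevalleyStructure Cfsg.Agent.ChevalleyStructure.Elts
open Cfsg.Agent.ChevalleyStructure.TwistedU Cfsg.Agent.H82.Level Cfsg.Agent.H82.TwMax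
open Cfsg.Agent.ChevalleyStructure.RootCombGood (co car)
open Cfsg.Agent.ChevalleyStructure.RootWord
open Cfsg.Agent.ChevalleyStructure.BruhatSplit (Acts)
open Cfsg.Agent.ChevalleyStructure.TwistedBN
open scoped commutatorElement

universe u

section B

variable {D : ChevalleyDatum} {K : Type u} [Field K] {hD : InList D} {h : SL D} {Lo : List (List ℕ)}
  {rho : ℕ → ℕ} {eps : ℕ → ℤ} {φ : K →+* K} {sg : GL D.Idx K →* GL D.Idx K} {G : Subgroup (GL D.Idx K)}
  {W : Tw hD h Lo rho eps φ sg G} {ψ : K →+* K} {top : ℕ} {H : Subgroup (GL D.Idx K)} (V : OvH W ψ top H)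

include W in
/-- an element of `H` with all simple coordinates one -/
theorem exists_reg (V : OvH W ψ top H) (he : ∀ r ∈ Lo.flatten, ht D r = 1 → eps r = 1) :
    ∃ e ∈ H, e ∈ D.posUnipotent K ∧ ∀ i < D.rank, cf (D.simple i) e = 1 := by
  have Gd := RootComb.good_of_mem hD
  obtain ⟨τ, hτ⟩ : ∃ τ : ℕ → K, τ = fun r => if ht D r = 1 then 1 else 0 := ⟨_, rfl⟩
  have h1 : ∀ r ∈ Lo.flatten, τ (rho r) = (eps r : K) * φ (τ r) := by
    intro r hr
    rw [hτ]
    simp only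
    rw [W.T.rho_ht r (W.T.lt r hr)]
    by_cases e : ht D r = 1
    · rw [if_pos e, map_one, he r hr e, Int.cast_one, one_mul]
    · rw [if_neg e, map_zero, mul_zero]
  have h2 : ∀ r, ψ (τ r) = τ r := by
    intro r
    rw [hτ]
    simp only
    by_cases e : ht D r = 1
    · rw [if_pos e, map_one]
    · rw [if_neg e, map_zero]
  have h3 : ∀ r ∈ Lo.flatten, ht D r < 1 → τ r = 0 := by
    intro r _ hr
    rw [hτ]
    simp only
    rw [if_neg (by omega)]
  have h4 := yy_mem_Lv W h3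
  refine ⟨yy hD Lo τ, V.memU _ h4.1 (yy_sg W h1) (yy_fr ψ h2), h4.1, fun i hi => ?_⟩
  rw [cf_yy W h3 (Gd.simple_pos hi) (h.simple i hi), hτ]
  simp only
  rw [if_pos (h.simple i hi)]

include V in
/-- Step B: the elements of `H ∩ B` are fixed entrywise. -/
theorem OvH.fix_B (he : ∀ r ∈ Lo.flatten, ht D r = 1 → eps r = 1) {β : ℕ} (hβ : β < D.nroots) (hβt : β ≠ top)
    (hβn : β ≠ D.neg top) (hα : D.IsPosRoot (add D top β))
    (hβs : ∀ c : K, sg (xG hD β c) = xG hD β (φ c)) (hβH : ∀ c : K, φ c = c → ψ c = c → xG hD β c ∈ H)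
    {v t : GL D.Idx K} (hv : v ∈ D.posUnipotent K) (hvs : sg v = v) (ht : t ∈ D.diagonalSubgroup K) (hts : sg t = t)
    (hg : v * t ∈ H) : fr D ψ (v * t) = v * t := by
  have hA := V.fix_U
  -- `t` is fixed
  obtain ⟨e, heH, heU, hce⟩ := exists_reg V he
  have h1 : fr D ψ t = t := by
    refine fr_diag hD ψ ht (chi_fix hD h ψ ht fun i hi => ?_)
    have h2 : v * t * e * (v * t)⁻¹ = v * (t * e * t⁻¹) * v⁻¹ := by group
    have h3 : t * e * t⁻¹ ∈ D.posUnipotent K := diag_conj_pos hD h ht heU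
    have h4 : v * (t * e * t⁻¹) * v⁻¹ ∈ D.posUnipotent K := mul_mem (mul_mem hv h3) (inv_mem hv)
    have h5 := hA _ (h2 ▸ mul_mem (mul_mem hg heH) (inv_mem hg)) h4
    have h6 := cf_of_fr ψ (r := D.simple i) h5
    rw [cf_conj hD h (by rw [h.simple i hi, Lv_one]; exact h3) hv, cf_diag_conj hD ht, hce i hi, mul_one] at h6
    exact h6
  obtain ⟨v₀, hv₀, hv₀U, hv₀f, a, ha⟩ := V.split_vt hv hvs ht hts h1 hg
  have hg1 : xG hD top a * t ∈ H := by
    have e1 : xG hD top a * t = v₀⁻¹ * (v * t) := by rw [ha]; group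
    rw [e1]
    exact mul_mem (inv_mem hv₀) hg
  obtain ⟨χ, hχ⟩ : ∃ χ, χ = chi D t β := ⟨_, rfl⟩
  have hχ0 : χ ≠ 0 := by rw [hχ]; exact chi_ne_zero hD ht β
  have hc1 : t * xG hD β 1 * t⁻¹ = xG hD β χ := by rw [diag_conj_X hD h ht hβ, mul_one, hχ]
  have hχφ : φ χ = χ := by
    have h2 := congrArg sg hc1
    rw [map_mul, map_mul, map_inv, hts, hβs, map_one, hc1, hβs] at h2
    exact (xG_injective hD hβ h2).symm
  have hχψ : ψ χ = χ := by
    have h2 := congrArg (fr D ψ) hc1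
    rw [map_mul, map_mul, map_inv, h1, fr_X, map_one, hc1, fr_X] at h2
    exact (xG_injective hD hβ h2).symm
  have hβ1 : xG hD β (1 : K) ∈ H := hβH 1 (map_one φ) (map_one ψ)
  have hβχ : xG hD β χ ∈ H := hβH χ hχφ hχψ
  have h2 : ⁅(xG hD top a : GL D.Idx K), xG hD β χ⁆ ∈ H := by
    have e1 : ⁅(xG hD top a : GL D.Idx K), xG hD β χ⁆ = (xG hD top a * t) * xG hD β 1 * (xG hD top a * t)⁻¹ *
        (xG hD β χ)⁻¹ := by
      rw [← hc1, commutatorElement_def]; group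
    rw [e1]
    exact mul_mem (mul_mem (mul_mem hg1 hβ1) (inv_mem hg1)) (inv_mem hβχ)
  rw [comm_X hD h V.top_pos.1 hβ hβt hβn] at h2
  have h3 : xG hD (add D top β) ((kap D top β : K) * (a * χ)) ∈ H := by
    have e1 : xG hD (add D top β) ((kap D top β : K) * (a * χ)) = (xG hD β χ)⁻¹ * (xG hD β χ *
        xG hD (add D top β) ((kap D top β : K) * (a * χ)) * (xG hD β χ)⁻¹) * xG hD β χ := by group
    rw [e1]
    exact mul_mem (mul_mem (inv_mem hβχ) h2) hβχ
  have h4 := hA _ h3 (xG_mem_posUnipotent hD hα _)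
  rw [fr_X] at h4
  have h5 := xG_injective hD hα.1 h4
  rw [map_mul, map_intCast, map_mul, hχψ] at h5
  have hk : (kap D top β : K) ≠ 0 := by
    rcases h.comm top V.top_pos.1 β hβ hβt hβn with ⟨-, h6⟩ | ⟨-, -, h6, -⟩
    · exact absurd hα.1 (by omega)
    · rcases h6 with h6 | h6 <;> rw [h6] <;> simp
  have h6 : ψ a = a := mul_right_cancel₀ hχ0 (mul_left_cancel₀ hk h5)
  rw [ha, map_mul, map_mul, hv₀f, h1, fr_X, h6]

end B

/-! ### The stages -/

/-- The condition on a root `γ = w⁻¹ δ` and a class `o` of simple roots under which the coordinates of `u` at the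
class are fixed. -/
def CaseP (D : ChevalleyDatum) (betas : List ℕ) (γ δ : ℕ) (o : List ℕ) : Prop :=
  (D.IsPosRoot γ ∧ ht D γ < ht D δ ∧ ∃ j ∈ o, add D γ (D.simple j) < D.nroots) ∨
  (∃ β ∈ betas, (∀ s < D.nroots, D.IsPosRoot s → ht D β + 1 ≤ ht D s → γ ≠ s ∧ γ ≠ D.neg s ∧
      add D s γ = D.nroots) ∧ γ ≠ β ∧ γ ≠ D.neg β ∧ D.IsPosRoot (add D β γ) ∧ add D β γ ≠ γ ∧
      add D β γ ≠ D.neg γ ∧ add D γ (add D β γ) = D.nroots ∧
      ∃ j ∈ o, add D (add D β γ) (D.simple j) < D.nroots)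

/-- The table condition for a stage of the chain. -/
def StageP (D : ChevalleyDatum) (rho : ℕ → ℕ) (cl : List (List ℕ)) (betas pre : List ℕ) (δ : ℕ) : Prop :=
  ∀ γ < D.nroots, rho γ = γ → γ ≠ δ → γ ≠ 0 → (∀ d ∈ pre, car D γ d = car D δ d) →
    ∃ o ∈ cl, (∀ j ∈ o, (∀ d ∈ pre, car D (D.simple j) d = 0) ∧ car D (D.simple j) γ < 0) ∧
      CaseP D betas γ δ o

set_option synthInstance.maxHeartbeats 400000 in
set_option synthInstance.maxSize 2000 in
instance decCaseP (D : ChevalleyDatum) (betas : List ℕ) (γ δ : ℕ) (o : List ℕ) :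
    Decidable (CaseP D betas γ δ o) := by
  unfold CaseP
  infer_instance

set_option synthInstance.maxHeartbeats 400000 in
set_option synthInstance.maxSize 2000 in
instance decStageP (D : ChevalleyDatum) (rho : ℕ → ℕ) (cl : List (List ℕ)) (betas pre : List ℕ)
    (δ : ℕ) : Decidable (StageP D rho cl betas pre δ) := by
  unfold StageP
  infer_instance

section Tw

variable {D : ChevalleyDatum} {K : Type u} [Field K] {hD : InList D} {h : SL D} {Lo : List (List ℕ)}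
  {rho : ℕ → ℕ} {eps : ℕ → ℤ} {φ : K →+* K} {sg : GL D.Idx K →* GL D.Idx K} {G : Subgroup (GL D.Idx K)}
  (W : Tw hD h Lo rho eps φ sg G) {ψ : K →+* K}

include W

/-- the coordinates of a class are fixed if one of them is -/
theorem cf_iter (hc : ∀ t, ψ (φ t) = φ (ψ t)) {r : ℕ} (hr : D.IsPosRoot r) (h1 : ht D r = 1) {u : GL D.Idx K}
    (hu : u ∈ D.posUnipotent K) (huG : u ∈ G) (hf : ψ (cf r u) = cf r u) (k : ℕ) :
    D.IsPosRoot (rho^[k] r) ∧ ht D (rho^[k] r) = 1 ∧ ψ (cf (rho^[k] r) u) = cf (rho^[k] r) u := by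
  induction k with
  | zero => exact ⟨hr, h1, hf⟩
  | succ k ih =>
    obtain ⟨i1, i2, i3⟩ := ih
    rw [Function.iterate_succ_apply']
    refine ⟨rho_pos W i1, by rw [W.T.rho_ht _ i1.1, i2], ?_⟩
    have h2 := cf_rho W i1 (g := u) (by rw [i2, Lv_one]; exact hu) (W.G_fix u huG)
    rw [h2, map_mul, map_intCast, hc, i3]

/-- stage with `w⁻¹ δ` positive -/
theorem stage_pos {H : Subgroup (GL D.Idx K)} (hA : ∀ u ∈ H, u ∈ D.posUnipotent K → fr D ψ u = u)
    {δ : ℕ} {m : ℤ} (hδ : D.IsPosRoot δ) (hm : ht D δ = m)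
    (huniq : ∀ s, D.IsPosRoot s → ht D s = m → s = δ) (hδH : xG hD δ (1 : K) ∈ H) {b n u : GL D.Idx K} {w : List ℕ}
    (hb : b ∈ D.borelSubgroup K) (hn : NW rho G n w) (hu : u ∈ D.posUnipotent K) (hg : b * n * u ∈ H)
    (hfix : ∀ s, D.IsPosRoot s → m + 1 ≤ ht D s → wact D w s = s)
    (hγ : D.IsPosRoot (wact D w.reverse δ)) (hγm : ht D (wact D w.reverse δ) < m)
    {j : ℕ} (hj : D.IsPosRoot j) (hj1 : ht D j = 1) (hlt : add D (wact D w.reverse δ) j < D.nroots) :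
    ψ (cf j u) = cf j u := by
  have O := ord (K := K) hD h W.T
  obtain ⟨c, hc, τ, hτ, e⟩ := stage1 W hδ hm huniq hb hn hu hfix
  have hz : (b * n * u)⁻¹ * xG hD δ 1 * (b * n * u) ∈ H := mul_mem (mul_mem (inv_mem hg) hδH) hg
  rw [e] at hz
  have hzU : u⁻¹ * xG hD (wact D w.reverse δ) c * u * τ ∈ D.posUnipotent K :=
    mul_mem (mul_mem (mul_mem (inv_mem hu) (xG_mem_posUnipotent hD hγ c)) hu) hτ.1
  have hf := hA _ hz hzU
  have hp := pos_of_add hD h hγ hj hlt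
  refine LS hD h O ψ hγ hj hj1 hlt hu hc (y := 1) (τ := τ) (one_mem _) (Lv_anti hD h (by omega) hτ) (cf_one _)
    ?_ ?_ ?_
  · rw [mul_one, cf_xG hD h hp.1.1 hγ.1, if_neg]
    intro he
    have := hp.2.1
    rw [he] at this
    omega
  · rw [commutatorElement_one_right, cf_one]
  · rw [mul_one]
    exact hf

/-- stage with `w⁻¹ α` negative, `α` the highest root -/
theorem stage_neg {H : Subgroup (GL D.Idx K)} (hA : ∀ u ∈ H, u ∈ D.posUnipotent K → fr D ψ u = u)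
    {α : ℕ} {m : ℤ} (hα : D.IsPosRoot α) (hm : ht D α = m)
    (huniq : ∀ s, D.IsPosRoot s → ht D s = m → s = α) (htop : ∀ s, D.IsPosRoot s → ht D s ≤ m)
    (hαH : xG hD α (1 : K) ∈ H) {b n u : GL D.Idx K} {w : List ℕ}
    (hb : b ∈ D.borelSubgroup K) (hn : NW rho G n w) (hu : u ∈ D.posUnipotent K) (hg : b * n * u ∈ H)
    {γ β : ℕ} (hγ : wact D w.reverse α = γ) (hβ : D.IsPosRoot β) (hβH : xG hD β (1 : K) ∈ H)
    (hc : ∀ s, D.IsPosRoot s → ht D β + 1 ≤ ht D s → γ ≠ s ∧ γ ≠ D.neg s ∧ add D s γ = D.nroots)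
    (h1 : γ ≠ β) (h2 : γ ≠ D.neg β) (h3 : D.IsPosRoot (add D β γ)) (h4 : add D β γ ≠ γ)
    (h5 : add D β γ ≠ D.neg γ) (h6 : add D γ (add D β γ) = D.nroots)
    {j : ℕ} (hj : D.IsPosRoot j) (hj1 : ht D j = 1) (hlt : add D (add D β γ) j < D.nroots) :
    ψ (cf j u) = cf j u := by
  have O := ord (K := K) hD h W.T
  have Gd := RootComb.good_of_mem hD
  have hγlt : γ < D.nroots := by
    rw [← hγ]
    exact wact_lt Gd (fun a ha => hn.lt a (List.mem_reverse.1 ha)) hα.1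
  obtain ⟨c, hc0, τ, hτ, e⟩ := stage1 W hα hm huniq hb hn hu (fun s hs hms => absurd (htop s hs) (by omega))
  have hτ1 : τ = 1 := eq_one_of_high W (fun r hr => by have := htop r hr; omega) hτ
  rw [hτ1, mul_one, hγ] at e
  have hz : (b * n * u)⁻¹ * xG hD α 1 * (b * n * u) ∈ H := mul_mem (mul_mem (inv_mem hg) hαH) hg
  rw [e] at hz
  have hz2 : ⁅(xG hD β (1 : K) : GL D.Idx K), u⁻¹ * xG hD γ c * u⁆ ∈ H := by
    rw [commutatorElement_def]
    exact mul_mem (mul_mem (mul_mem hβH hz) (inv_mem hβH)) (inv_mem hz)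
  have hτ2 : ⁅(xG hD β (1 : K) : GL D.Idx K)⁻¹, u⁆ ∈ Lv K hD h (ht D β + 1) :=
    comm_mem_Lv hD h (inv_mem (xG_mem_Lv hD h hβ 1)) (by rw [Lv_one]; exact hu)
  have hcm := commute_of_Lv W hγlt hc hτ2 c
  have e2 : ⁅(xG hD β (1 : K) : GL D.Idx K), u⁻¹ * xG hD γ c * u⁆ =
      u⁻¹ * ⁅(xG hD β (1 : K) : GL D.Idx K), xG hD γ c⁆ * u := by
    obtain ⟨y, hy⟩ : ∃ y, y = ⁅(xG hD β (1 : K) : GL D.Idx K)⁻¹, u⁆ := ⟨_, rfl⟩
    rw [← hy] at hcm
    have e3 : u * xG hD β (1 : K) * u⁻¹ = xG hD β (1 : K) * y := by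
      rw [hy, commutatorElement_def]; group
    have e4 : ⁅(xG hD β (1 : K) : GL D.Idx K), u⁻¹ * xG hD γ c * u⁆ =
        u⁻¹ * ⁅u * xG hD β (1 : K) * u⁻¹, xG hD γ c⁆ * u := by
      rw [commutatorElement_def, commutatorElement_def]; group
    rw [e4, e3]
    congr 2
    rw [commutatorElement_def, commutatorElement_def, mul_inv_rev]
    calc xG hD β 1 * y * xG hD γ c * (y⁻¹ * (xG hD β 1)⁻¹) * (xG hD γ c)⁻¹
        = xG hD β 1 * (y * xG hD γ c) * (y⁻¹ * (xG hD β 1)⁻¹) * (xG hD γ c)⁻¹ := by group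
      _ = xG hD β 1 * (xG hD γ c * y) * (y⁻¹ * (xG hD β 1)⁻¹) * (xG hD γ c)⁻¹ := by rw [hcm.eq]
      _ = _ := by group
  have e5 : ⁅(xG hD β (1 : K) : GL D.Idx K), xG hD γ c⁆ = xG hD (add D β γ) ((kap D β γ : K) * (1 * c)) := by
    rw [comm_X hD h hβ.1 hγlt h1 h2]
    have h7 : Commute (xG hD γ c : GL D.Idx K) (xG hD (add D β γ) ((kap D β γ : K) * (1 * c))) := by
      rw [← commutatorElement_eq_one_iff_commute, comm_X hD h hγlt h3.1 h4 h5, h6,
        xG_of_not_lt hD (lt_irrefl _), mul_one, mul_inv_cancel]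
    rw [h7.eq]
    group
  rw [e2, e5] at hz2
  have hk : (kap D β γ : K) * (1 * c) ≠ 0 := by
    rcases h.comm β hβ.1 γ hγlt h1 h2 with ⟨-, h8⟩ | ⟨-, -, h8, -⟩
    · have := h3.1
      omega
    · rw [one_mul]
      refine mul_ne_zero ?_ hc0
      rcases h8 with h8 | h8 <;> rw [h8] <;> simp
  generalize (kap D β γ : K) * (1 * c) = c' at hz2 hk
  have hzU : u⁻¹ * xG hD (add D β γ) c' * u ∈ D.posUnipotent K :=
    mul_mem (mul_mem (inv_mem hu) (xG_mem_posUnipotent hD h3 c')) hu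
  have hf := hA _ hz2 hzU
  have hp := pos_of_add hD h h3 hj hlt
  refine LS hD h O ψ h3 hj hj1 hlt hu hk (y := 1) (τ := 1) (one_mem _) (one_mem _) (cf_one _) ?_ ?_ ?_
  · rw [mul_one, cf_xG hD h hp.1.1 h3.1, if_neg]
    intro he
    have := hp.2.1
    rw [he] at this
    omega
  · rw [commutatorElement_one_right, cf_one]
  · rw [mul_one, mul_one]
    exact hf

/-- a stage of the chain -/
theorem stage {H : Subgroup (GL D.Idx K)} (hcφ : ∀ t, ψ (φ t) = φ (ψ t))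
    (hA : ∀ u ∈ H, u ∈ D.posUnipotent K → fr D ψ u = u)
    {cl : List (List ℕ)} {betas pre : List ℕ} {δ : ℕ} (hS : StageP D rho cl betas pre δ)
    (hLP : LP D pre δ) (hcl : ∀ o ∈ cl, ∀ j ∈ o, j < D.rank)
    (horb : ∀ o ∈ cl, ∀ j ∈ o, ∀ j' ∈ o, ∃ k, rho^[k] (D.simple j) = D.simple j')
    (hbetas : ∀ β ∈ betas, D.IsPosRoot β ∧ xG hD β (1 : K) ∈ H) (hb0 : betas ≠ [] → ∀ s, D.IsPosRoot s → ht D s ≤ ht D δ)
    (hpre : ∀ d ∈ pre, d < D.nroots) (hδ : D.IsPosRoot δ)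
    (hrδ : rho δ = δ)
    (huniq : ∀ s, D.IsPosRoot s → ht D s = ht D δ → s = δ) (hδH : xG hD δ (1 : K) ∈ H)
    (hhigh : ∀ s, D.IsPosRoot s → ht D δ + 1 ≤ ht D s → s ∈ pre) {b n u : GL D.Idx K} {w : List ℕ}
    (hb : b ∈ D.borelSubgroup K) (hn : NW rho G n w) (hu : u ∈ D.posUnipotent K) (huG : u ∈ G) (hg : b * n * u ∈ H)
    (hw : ∀ d ∈ pre, wact D w d = d) (hne : wact D w.reverse δ ≠ δ) (hn0 : wact D w.reverse δ ≠ 0) :
    ∃ o ∈ cl, (∀ j ∈ o, D.IsNegRoot (wact D w (D.simple j))) ∧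
      (∀ j ∈ o, ψ (cf (D.simple j) u) = cf (D.simple j) u) ∧
      ∀ j ∈ o, (∀ d ∈ pre, car D (D.simple j) d = 0) ∧ car D (D.simple j) (wact D w.reverse δ) < 0 := by
  have Gd := RootComb.good_of_mem hD
  have hwr : ∀ a ∈ w.reverse, a < D.rank := fun a ha => hn.lt a (List.mem_reverse.1 ha)
  obtain ⟨γ, hγ⟩ : ∃ γ, γ = wact D w.reverse δ := ⟨_, rfl⟩
  have hγlt : γ < D.nroots := by rw [hγ]; exact wact_lt Gd hwr hδ.1
  have hwγ : wact D w γ = δ := by rw [hγ]; exact wact_reverse' Gd hn.lt hδ.1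
  have hγδ : γ ≠ δ := by rw [hγ]; exact hne
  have hργ : rho γ = γ := by
    refine wact_inj Gd hn.lt (W.T.rho_lt γ hγlt) hγlt ?_
    rw [hn.comm γ hγlt, hwγ, hrδ]
  have hpair : ∀ d ∈ pre, car D γ d = car D δ d := by
    intro d hd
    have h1 := car_wact Gd hn.lt hγlt (hpre d hd)
    rw [hwγ, hw d hd] at h1
    exact h1.symm
  obtain ⟨o, ho, hj, hcase⟩ := hS γ hγlt hργ hγδ (by rw [hγ]; exact hn0) hpair
  refine ⟨o, ho, fun j hjo => ?_, ?_, by rw [← hγ]; exact hj⟩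
  · have hjr := hcl o ho j hjo
    have hsl := Gd.simple_lt hjr
    rcases pos_or_neg Gd (wact_lt Gd hn.lt hsl) with hp | hp
    · exfalso
      have h1 := hLP _ (wact_lt Gd hn.lt hsl) hp (fun d hd => by
        have h2 := car_wact Gd hn.lt hsl (hpre d hd)
        rw [hw d hd] at h2
        rw [h2]
        exact (hj j hjo).1 d hd)
      have h2 := car_wact Gd hn.lt hsl hγlt
      rw [hwγ] at h2
      rw [h2] at h1
      have := (hj j hjo).2
      omega
    · exact hp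
  · have hone : (∃ j ∈ o, ψ (cf (D.simple j) u) = cf (D.simple j) u) →
        ∀ j ∈ o, ψ (cf (D.simple j) u) = cf (D.simple j) u := by
      rintro ⟨j, hj1, hj2⟩ j' hj'
      obtain ⟨k, hk⟩ := horb o ho j hj1 j' hj'
      have hjr := hcl o ho j hj1
      have := cf_iter W hcφ (Gd.simple_pos hjr) (h.simple j hjr) hu huG hj2 k
      rw [hk] at this
      exact this.2.2
    apply hone
    rcases hcase with ⟨hp, hlt, j, hjo, hadd⟩ | ⟨β, hβ, hc, h1, h2, h3, h4, h5, h6, j, hjo, hadd⟩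
    · have hjr := hcl o ho j hjo
      refine ⟨j, hjo, ?_⟩
      refine stage_pos W hA hδ rfl huniq hδH hb hn hu hg (fun s hs hms => hw s (hhigh s hs hms)) ?_ ?_
        (Gd.simple_pos hjr) (h.simple j hjr) ?_
      · rw [← hγ]; exact hp
      · rw [← hγ]; exact hlt
      · rw [← hγ]; exact hadd
    · have hjr := hcl o ho j hjo
      refine ⟨j, hjo, ?_⟩
      exact stage_neg W hA hδ rfl huniq (hb0 (by rintro rfl; simp at hβ)) hδH hb hn hu hg hγ.symm (hbetas β hβ).1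
        (hbetas β hβ).2 (fun s hs hms => hc s hs.1 hs hms) h1 h2 h3 h4 h5 h6 (Gd.simple_pos hjr) (h.simple j hjr) hadd

end Tw

/-! ### The Bruhat induction -/

section Ind

variable {D : ChevalleyDatum} {K : Type u} [Field K] (hD : InList D) (rho : ℕ → ℕ) (G : Subgroup (GL D.Idx K))
  (ψ : K →+* K) {ι : Type*} (J : ι → List ℕ) (nh : ι → GL D.Idx K) (H : Subgroup (GL D.Idx K))

/-- the classes of simple roots and the corresponding elements of `N ∩ H` -/
structure ClsP : Prop where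
  rho_lt : ∀ r < D.nroots, rho r < D.nroots
  J_ne : ∀ i, J i ≠ []
  J_orth : ∀ i, (J i).Pairwise fun j j' => D.reflectRoot j (D.simple j') = D.simple j' ∧
    D.reflectRoot j' (D.simple j) = D.simple j
  nhW : ∀ i, NW rho G (nh i) (J i)
  nh_fr : ∀ i, fr D ψ (nh i) = nh i
  nh_mem : ∀ i, nh i ∈ H
  split : ∀ i, ∀ u ∈ D.posUnipotent K, u ∈ G →
    (∀ j ∈ J i, ψ (cf (D.simple j) u) = cf (D.simple j) u) →
    ∃ v x, x ∈ H ∧ fr D ψ x = x ∧ v ∈ G ∧ nh i * v * (nh i)⁻¹ ∈ D.posUnipotent K ∧ u = v * x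

variable {rho G ψ J nh H}

include hD in
/-- **The Bruhat induction.** -/
theorem bruhat_ind (C : ClsP rho G ψ J nh H) {top bot : ℕ}
    (hHG : H ≤ G) (hB : ∀ g ∈ H, g ∈ D.borelSubgroup K → fr D ψ g = g)
    (key : ∀ (w : List ℕ) (b n u : GL D.Idx K), b ∈ D.borelSubgroup K → b ∈ G → NW rho G n w →
      u ∈ D.posUnipotent K → u ∈ G → b * n * u ∈ H →
      (∀ i < D.rank, D.IsPosRoot (wact D w (D.simple i))) ∨ wact D w.reverse top = bot ∨
      ∃ i, (∀ j ∈ J i, D.IsNegRoot (wact D w (D.simple j))) ∧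
        (∀ j ∈ J i, ψ (cf (D.simple j) u) = cf (D.simple j) u) ∧ wact D (J i) (wact D w.reverse top) ≠ bot) :
    ∀ (k : ℕ) (w : List ℕ) (b n u : GL D.Idx K), inv D w ≤ k → b ∈ D.borelSubgroup K → b ∈ G → NW rho G n w →
      u ∈ D.posUnipotent K → u ∈ G → b * n * u ∈ H → fr D ψ (b * n * u) = b * n * u ∨
      wact D w.reverse top = bot := by
  have Gd := RootComb.good_of_mem hD
  have hpos : ∀ (w : List ℕ) (b n u : GL D.Idx K), b ∈ D.borelSubgroup K → NW rho G n w →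
      u ∈ D.posUnipotent K → b * n * u ∈ H → (∀ i < D.rank, D.IsPosRoot (wact D w (D.simple i))) →
      fr D ψ (b * n * u) = b * n * u := fun w b n u hb hn hu hg hp =>
    hB _ hg (mul_mem (mul_mem hb (mem_borel_of_pos hD hn hp)) (Subgroup.mem_sup_left hu))
  intro k
  induction k with
  | zero =>
    intro w b n u hk hb hbG hn hu huG hg
    left
    refine hpos w b n u hb hn hu hg fun i hi => ?_
    exact (inv_eq_zero_iff Gd hn.lt).1 (Nat.le_zero.1 hk) _ (Gd.simple_pos hi)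
  | succ k ih =>
    intro w b n u hk hb hbG hn hu huG hg
    rcases key w b n u hb hbG hn hu huG hg with hp | hbot | ⟨i, hi1, hi2, hi3⟩
    · exact Or.inl (hpos w b n u hb hn hu hg hp)
    · exact Or.inr hbot
    · left
      obtain ⟨v, x, hxH, hxF, hvG, hvU, rfl⟩ := C.split i u hu huG hi2
      have hNi := C.nhW i
      have hw' : inv D (w ++ (J i).reverse) ≤ k := by
        have h1 := inv_append_list Gd (J i).reverse w hn.lt (fun a ha => hNi.lt a (List.mem_reverse.1 ha))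
          (by
            rw [List.pairwise_reverse]
            exact (C.J_orth i).imp fun hab => hab.2)
          (fun j hj => hi1 j (List.mem_reverse.1 hj))
        have h2 : 0 < (J i).reverse.length := by
          rw [List.length_reverse]
          exact List.length_pos_iff.2 (C.J_ne i)
        omega
      have h3 : b * (n * (nh i)⁻¹) * (nh i * v * (nh i)⁻¹) = b * n * (v * x) * x⁻¹ * (nh i)⁻¹ := by group
      have hnH := C.nh_mem i
      have h4 : b * (n * (nh i)⁻¹) * (nh i * v * (nh i)⁻¹) ∈ H := by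
        rw [h3]
        exact mul_mem (mul_mem hg (inv_mem hxH)) (inv_mem hnH)
      rcases ih (w ++ (J i).reverse) b (n * (nh i)⁻¹) (nh i * v * (nh i)⁻¹) hw' hb hbG
        (hn.mul Gd (hNi.inv C.rho_lt Gd)) hvU
        (mul_mem (mul_mem hNi.mem_G hvG) (inv_mem hNi.mem_G)) h4 with h5 | h5
      · rw [h3, map_mul, map_mul, map_inv, map_inv, hxF, C.nh_fr i] at h5
        exact mul_right_cancel (mul_right_cancel h5)
      · exfalso
        apply hi3
        rw [List.reverse_append, List.reverse_reverse, wact_append] at h5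
        exact h5

end Ind

end Cfsg.Agent.H28.TwOv
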