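import Cfsg.Agent.H28.TwOv.Lvl
import Cfsg.Agent.H82.TwE6
import Cfsg.Agent.H82.TwD4

/-!
# Overgroups of the subfield subgroups of twisted groups: transfer from the subfield (S2187, X6)

* `exists_map_U` : `u ∈ U(K)` fixed by `ψ` comes from `U(k₀)`;
* `memU_e6`, `memU_d4` : elements of `U` fixed by `sg` and `ψ` come from the twisted group over the subfield;
* `n_e6`, `n_d4` : the elements of `N`.
-/

set_option autoImplicit false

namespace Cfsg.Agent.H28.TwOv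

open Cfsg.Lie Cfsg.Agent.ChevalleyStructure Cfsg.Agent.ChevalleyStructure.Elts
open Cfsg.Agent.ChevalleyStructure.TwistedU Cfsg.Agent.H82.Level Cfsg.Agent.H82.TwMax

universe u v

section Map

variable {D : ChevalleyDatum} {k₀ : Type v} [Field k₀] {K : Type u} [Field K] (f : k₀ →+* K)

/-- the entrywise map -/
noncomputable abbrev mp (D : ChevalleyDatum) (f : k₀ →+* K) : GL D.Idx k₀ →* GL D.Idx K :=
  Matrix.GeneralLinearGroup.map f

theorem mp_X (hD : InList D) (r : ℕ) (t : k₀) : mp D f (xG hD r t) = xG hD r (f t) := by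
  apply Units.ext
  show ((xG hD r t : GL D.Idx k₀) : Matrix D.Idx D.Idx k₀).map f = _
  rw [coe_xG, coe_xG]
  exact ChevStructure.FieldMap.x_map D f r t

theorem mp_lprod (hD : InList D) (l : List ℕ) (c : ℕ → k₀) :
    mp D f (lprod (xG hD) l c) = lprod (xG hD) l fun s => f (c s) := by
  unfold lprod
  rw [map_list_prod, List.map_map]
  congr 1
  exact List.map_congr_left fun s _ => mp_X f hD s (c s)

theorem mp_nG (hD : InList D) (r : ℕ) (t : k₀) : mp D f (nG hD r t) = nG hD r (f t) := by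
  rw [nG_def, nG_def, map_mul, map_mul, mp_X, mp_X, map_neg, map_inv₀]

/-- elements of `U` with coordinates in the subfield -/
theorem exists_map_U (hD : InList D) (h : SL D) {L : List ℕ} (O : Ord K hD L) {ψ : K →+* K}
    (hψ : ∀ t, ψ t = t → ∃ a, f a = t) {u : GL D.Idx K} (hu : u ∈ D.posUnipotent K) (hf : fr D ψ u = u) :
    ∃ u₀ ∈ D.posUnipotent k₀, mp D f u₀ = u := by
  obtain ⟨N, hN⟩ : ∃ N : ℕ, ∀ r ∈ L, ht D r < N := by
    refine ⟨(L.toFinset).sup (fun r => (ht D r).toNat) + 1, fun r hr => ?_⟩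
    have h1 := Nat.lt_succ_of_le (Finset.le_sup (f := fun r => (ht D r).toNat) (List.mem_toFinset.2 hr))
    have h2 := Int.self_le_toNat (ht D r)
    omega
  have key : ∀ n : ℕ, ∀ m : ℤ, 1 ≤ m → (N : ℤ) ≤ m + n → ∀ u ∈ Lv K hD h m, fr D ψ u = u →
      ∃ u₀ ∈ D.posUnipotent k₀, mp D f u₀ = u := by
    intro n
    induction n with
    | zero =>
      intro m _ hm u hu _
      refine ⟨1, one_mem _, ?_⟩
      rw [map_one]
      -- `u` has no coordinates
      have h1 : ∀ n : ℕ, u ∈ Lv K hD h (m + n) := by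
        intro n
        induction n with
        | zero => simpa using hu
        | succ n ih =>
          have := mem_Lv_succ hD h O ih fun r hr hrm => by
            have := hN r ((O.mem r).2 hr)
            push_cast at hm
            omega
          push_cast
          rw [← add_assoc]
          exact this
      symm
      apply Units.ext
      rw [Units.val_one, ← sub_eq_zero]
      obtain ⟨B, hB⟩ := (Set.finite_range fun x : D.Idx × D.Idx => wt D x.1 - wt D x.2).bddAbove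
      ext i j
      have h2 := (h1 (B + 1 - m).toNat).2
      refine h2 i j ?_
      have h3 := hB ⟨(i, j), rfl⟩
      simp only at h3
      have h4 := Int.self_le_toNat (B + 1 - m)
      omega
    | succ n ih =>
      intro m hm1 hm u hu hfu
      push_cast at hm
      have h1 : ∀ s, ∃ a, f a = if ht D s = m then cf s u else 0 := by
        intro s
        by_cases e : ht D s = m
        · rw [if_pos e]
          exact hψ _ (cf_of_fr ψ hfu)
        · rw [if_neg e]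
          exact ⟨0, map_zero f⟩
      choose c hc using h1
      have h2 : mp D f (lprod (xG hD) L c) = lead hD L m u := by
        rw [mp_lprod]
        unfold lead
        exact lprod_congr _ fun s _ => hc s
      have h3 : lprod (xG hD) L c ∈ D.posUnipotent k₀ :=
        lprod_mem _ fun s hs => xG_mem_posUnipotent hD ((O.mem s).1 hs) _
      have hfl : fr D ψ (lead hD L m u) = lead hD L m u := by
        unfold lead
        rw [fr_lprod]
        refine lprod_congr _ fun s hs => ?_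
        by_cases e : ht D s = m
        · rw [if_pos e, cf_of_fr ψ hfu]
        · rw [if_neg e, map_zero]
      obtain ⟨u₁, hu₁, e1⟩ := ih (m + 1) (by omega) (by omega) _ (lead_inv_mul_mem hD h O hu)
        (by rw [map_mul, map_inv, hfl, hfu])
      refine ⟨lprod (xG hD) L c * u₁, mul_mem h3 hu₁, ?_⟩
      rw [map_mul, h2, e1]
      group
  exact key N 1 le_rfl (by omega) u (by rw [Lv_one]; exact hu) hf

theorem mp_injective : Function.Injective (mp D f) := by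
  intro a b hab
  apply Units.ext
  ext i j
  exact f.injective (congrArg (fun g : GL D.Idx K => (g : Matrix D.Idx D.Idx K) i j) hab)

/-- the twisting map commutes with the entrywise map -/
theorem mp_symm (S : SignedSymm.Symm D) {φ₀ : k₀ →+* k₀} {φ : K →+* K} (hf : ∀ a, f (φ₀ a) = φ (f a)) (g : GL D.Idx k₀) :
    mp D f (S.P k₀ * Matrix.GeneralLinearGroup.map φ₀ g * (S.P k₀)⁻¹) =
      S.P K * Matrix.GeneralLinearGroup.map φ (mp D f g) * (S.P K)⁻¹ := by
  have h1 : mp D f (S.P k₀) = S.P K := by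
    apply Units.ext
    ext a b
    show f ((S.P k₀ : GL D.Idx k₀) a b) = (S.P K : GL D.Idx K) a b
    rw [SignedSymm.Symm.coe_P, SignedSymm.Symm.coe_P, SignedSymm.Symm.mat_apply, SignedSymm.Symm.mat_apply]
    by_cases e : a = S.perm b
    · rw [if_pos e, if_pos e, map_intCast]
    · rw [if_neg e, if_neg e, map_zero]
  have h2 : mp D f (Matrix.GeneralLinearGroup.map φ₀ g) = Matrix.GeneralLinearGroup.map φ (mp D f g) := by
    apply Units.ext
    ext a b
    exact hf _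
  rw [map_mul, map_mul, map_inv, h1, h2]

end Map

section E6

open Cfsg.Agent.ChevalleyStructure.TwE6Basic (hE6 sg n)

variable {k₀ : Type v} [Field k₀] [Fintype k₀] {K : Type u} [Field K] [Fintype K] (f : k₀ →+* K) {q₀ q : ℕ}
  {φ₀ : k₀ →+* k₀} {φ ψ : K →+* K} (hφ₀ : ∀ t, φ₀ t = t ^ q₀) (hφφ₀ : ∀ t, φ₀ (φ₀ t) = t)
  (hφ : ∀ t, φ t = t ^ q) (hφφ : ∀ t, φ (φ t) = t) (hf : ∀ a, f (φ₀ a) = φ (f a))
  (hψ : ∀ t, ψ t = t → ∃ a, f a = t)

include hφ₀ hφφ₀ hφ hφφ hf hψ in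
theorem memU_e6 {u : GL chevE6.Idx K} (hu : u ∈ chevE6.posUnipotent K) (hs : sg φ u = u) (hfu : fr chevE6 ψ u = u) :
    ∃ u₀ ∈ twistedE6 k₀ q₀, mp chevE6 f u₀ = u := by
  have W := H82.TwE6.tw (q := q) hφ hφφ
  have W₀ := H82.TwE6.tw (q := q₀) hφ₀ hφφ₀
  obtain ⟨u₀, hu₀, e⟩ := exists_map_U f hE6 H82.TwE6.slE6 (ord (K := K) hE6 H82.TwE6.slE6 W.T) hψ hu hfu
  refine ⟨u₀, W₀.U_fix u₀ hu₀ ?_, e⟩
  apply mp_injective f
  have h1 := mp_symm f GraphSymm.symmE6 hf u₀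
  have h2 : mp chevE6 f (sg φ₀ u₀) = sg φ (mp chevE6 f u₀) := h1
  rw [h2, e, hs]

include hφ₀ in
omit [Fintype k₀] [Fintype K] in
theorem n_e6 (i : Fin 4) : ∃ n₀ ∈ twistedE6 k₀ q₀, mp chevE6 f n₀ = n (K := K) i := by
  refine ⟨n (K := k₀) i, TwE6BN.n_mem_G φ₀ hφ₀ i, ?_⟩
  rw [TwE6Basic.n_def, TwE6Basic.n_def, map_list_prod, List.map_map]
  congr 1
  refine List.map_congr_left fun j _ => ?_
  show mp chevE6 f (nG hE6 (chevE6.simple j) 1) = nG hE6 (chevE6.simple j) 1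
  rw [mp_nG, map_one]

end E6

section D4

open Cfsg.Agent.ChevalleyStructure.D4U (na nb na_mem nb_mem)

variable {k₀ : Type v} [Field k₀] [Fintype k₀] {K : Type u} [Field K] [Fintype K] (f : k₀ →+* K) {q₀ q : ℕ}
  {φ₀ : k₀ →+* k₀} {φ ψ : K →+* K} (hφ₀ : ∀ t, φ₀ t = t ^ q₀) (hφφ₀ : ∀ t, φ₀ (φ₀ (φ₀ t)) = t)
  (hφ : ∀ t, φ t = t ^ q) (hK : Fintype.card K = q ^ 3) (hf : ∀ a, f (φ₀ a) = φ (f a))
  (hψ : ∀ t, ψ t = t → ∃ a, f a = t)

include hφφ₀ hφ₀ in
omit [Fintype k₀] in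
/-- `³D₄` is fixed, for any exponent with `φ₀³ = 1` -/
theorem le_fix : twistedD4 k₀ q₀ ≤ D4Fixed.fix φ₀ :=
  D4Fixed.twisted_induction hφ₀ (fun t ht => D4Fixed.fix_14 φ₀ ht) (fun t ht => D4Fixed.fix_9 φ₀ ht)
    (fun t => D4Fixed.fix_X φ₀ (hφφ₀ t)) fun t => D4Fixed.fix_Y φ₀ (hφφ₀ t)

include hφ₀ hφφ₀ hφ hK hf hψ in
theorem memU_d4 {u : GL chevD4.Idx K} (hu : u ∈ chevD4.posUnipotent K) (hs : D4Fixed.sig φ u = u)
    (hfu : fr chevD4 ψ u = u) : ∃ u₀ ∈ twistedD4 k₀ q₀, mp chevD4 f u₀ = u := by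
  have W := H82.TwD4.tw (q := q) hφ hK
  obtain ⟨u₀, hu₀, e⟩ := exists_map_U f H82.TwD4.hD4 H82.TwD4.slD4 (ord (K := K) H82.TwD4.hD4 H82.TwD4.slD4 W.T) hψ hu hfu
  have h4 : D4Fixed.sig φ₀ u₀ = u₀ := by
    apply mp_injective f
    have h1 := mp_symm f GraphSymm.symmD4a hf u₀
    have h2 : mp chevD4 f (D4Fixed.sig φ₀ u₀) = D4Fixed.sig φ (mp chevD4 f u₀) := h1
    rw [h2, e, hs]
  have h5 : u₀ ∈ chevD4.posUnipotent k₀ ⊓ D4Fixed.fix φ₀ := ⟨hu₀, h4⟩
  rw [← D4U.U_inf_eq hφφ₀ hφ₀ (le_fix hφ₀ hφφ₀)] at h5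
  exact ⟨u₀, h5.2, e⟩

include hφ₀ in
omit [Fintype k₀] [Fintype K] in
theorem na_d4 : ∃ n₀ ∈ twistedD4 k₀ q₀, mp chevD4 f n₀ = na K := by
  refine ⟨na k₀, na_mem hφ₀, ?_⟩
  rw [H82.TwD4.na_eq, H82.TwD4.na_eq, mp_nG, map_one]

include hφ₀ in
omit [Fintype k₀] [Fintype K] in
theorem nb_d4 : ∃ n₀ ∈ twistedD4 k₀ q₀, mp chevD4 f n₀ = nb K := by
  refine ⟨nb k₀, nb_mem hφ₀, ?_⟩
  rw [H82.TwD4.nb_eq, H82.TwD4.nb_eq, map_mul, map_mul, mp_nG, mp_nG, mp_nG, map_one]

end D4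

end Cfsg.Agent.H28.TwOv
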